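import Cfsg.Agent.Q10.Top
import Cfsg.Prelude.Def_QuasithinSetup
import Mathlib.GroupTheory.Perm.Finite

/-! The embedding of the coded model into the stabilizer of a partition of eight points. -/

set_option autoImplicit false
set_option maxRecDepth 100000

namespace CF.Q10

open Cfsg Subgroup CF.Loc CF.LX Equiv Pointwise

/-- the eight points -/
abbrev Om := Fin 4 ⊕ Fin 4

/-- the swap of the blocks -/
def sw : Perm Om := Equiv.sumComm (Fin 4) (Fin 4)

theorem sw_sw : sw * sw = 1 := Equiv.ext fun x => by cases x <;> rfl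

theorem sw_mul (f g : Perm (Fin 4)) : sw * Perm.sumCongr f g = Perm.sumCongr g f * sw :=
  Equiv.ext fun x => by cases x <;> rfl

/-- the embedding -/
def ιT : T0 →* Perm Om := MonoidHom.mk' (fun t => Perm.sumCongr (pp t.x) (pp t.y) * cond t.e sw 1)
  fun ⟨x, y, e⟩ ⟨x', y', e'⟩ => by
    cases e <;> cases e' <;>
      simp only [mul_def, cond_true, cond_false, Bool.xor_false, Bool.xor_true, Bool.not_true, Bool.not_false,
        mul_one, map_mul, ← Perm.sumCongr_mul, mul_assoc]
    · rw [sw_mul]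
    · rw [← mul_assoc sw, sw_mul, mul_assoc, sw_sw, mul_one]

theorem sc_l (f g : Perm (Fin 4)) : Perm.sumCongr f g • Set.range (Sum.inl : Fin 4 → Om) = Set.range Sum.inl := by
  rw [Set.smul_set_range]
  exact f.surjective.range_comp (Sum.inl : Fin 4 → Om)

theorem sc_r (f g : Perm (Fin 4)) : Perm.sumCongr f g • Set.range (Sum.inr : Fin 4 → Om) = Set.range Sum.inr := by
  rw [Set.smul_set_range]
  exact g.surjective.range_comp (Sum.inr : Fin 4 → Om)

theorem sw_l : sw • Set.range (Sum.inl : Fin 4 → Om) = Set.range Sum.inr := by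
  rw [Set.smul_set_range]; rfl

theorem sw_r : sw • Set.range (Sum.inr : Fin 4 → Om) = Set.range Sum.inl := by
  rw [Set.smul_set_range]; rfl

theorem sc_mem (f g : Perm (Fin 4)) : Perm.sumCongr f g ∈ blockStabilizerS4wr2 := by
  rw [blockStabilizerS4wr2, MulAction.mem_stabilizer_iff, Set.smul_set_insert, Set.smul_set_singleton,
    sc_l, sc_r]

theorem sw_mem : sw ∈ blockStabilizerS4wr2 := by
  rw [blockStabilizerS4wr2, MulAction.mem_stabilizer_iff, Set.smul_set_insert, Set.smul_set_singleton,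
    sw_l, sw_r, Set.pair_comm]

theorem ι_mem (t : T0) : ιT t ∈ blockStabilizerS4wr2 :=
  mul_mem (sc_mem _ _) (by cases t.e; exacts [one_mem _, sw_mem])

theorem W_cases {u : Perm Om} (hu : u ∈ blockStabilizerS4wr2) :
    ∃ (f g : Perm (Fin 4)) (e : Bool), u = Perm.sumCongr f g * cond e sw 1 := by
  have k : ∀ u : Perm Om, u • Set.range (Sum.inl : Fin 4 → Om) = Set.range Sum.inl →
      ∃ f g, u = Perm.sumCongr f g := fun u e => by
    obtain ⟨⟨f, g⟩, r⟩ := Perm.mem_sumCongrHom_range_of_perm_mapsTo_inl (σ := u)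
      fun x hx => e ▸ Set.smul_mem_smul_set hx
    exact ⟨f, g, r.symm⟩
  rw [blockStabilizerS4wr2, MulAction.mem_stabilizer_iff, Set.smul_set_insert] at hu
  rcases (hu.le (Set.mem_insert _ _) : _ = _ ∨ _ = _) with r | r
  · obtain ⟨f, g, e⟩ := k u r
    exact ⟨f, g, false, e.trans (mul_one _).symm⟩
  · obtain ⟨f, g, e⟩ := k (sw * u) (by rw [mul_smul, r, sw_r])
    exact ⟨g, f, true, by rw [cond_true, ← sw_mul, ← e, ← mul_assoc, sw_sw, one_mul]⟩

theorem W_cent {u : Perm Om} (hu : u ∈ blockStabilizerS4wr2) (e : u * ιT z = ιT z * u) :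
    ∃ t, ιT t = u := by
  obtain ⟨f, g, i, rfl⟩ := W_cases hu
  have a : ιT z = Perm.sumCongr (pf dz) (pf dz) := mul_one _
  have b : cond i sw 1 * ιT z = ιT z * cond i sw 1 := by
    cases i
    · simp
    · rw [a]; exact sw_mul _ _
  rw [mul_assoc, b, ← mul_assoc, ← mul_assoc, mul_left_inj, a, Perm.sumCongr_mul, Perm.sumCongr_mul] at e
  have := Perm.sumCongrHom_injective (a₁ := (_, _)) (a₂ := (_, _)) e
  obtain ⟨x, rfl⟩ := pp_cent f (congrArg Prod.fst this)
  obtain ⟨y, rfl⟩ := pp_cent g (congrArg Prod.snd this)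
  exact ⟨⟨x, y, i⟩, rfl⟩

theorem ι_inj : Function.Injective ιT := (injective_iff_map_eq_one ιT).2 fun ⟨x, y, e⟩ h => by
  cases e
  · have := Perm.sumCongrHom_injective (a₁ := (pp x, pp y)) (a₂ := (pp 1, pp 1))
      (((mul_one _).symm.trans h).trans (by simp))
    obtain rfl := pp_inj (congrArg Prod.fst this)
    obtain rfl := pp_inj (congrArg Prod.snd this)
    rfl
  · exact absurd (congrArg (fun u : Perm Om => u (Sum.inl 0)) h) Sum.inr_ne_inl

theorem final {G : Type*} [Group G] [Finite G] [IsSimpleGroup G] (hG : ¬ IsMulCommutative G)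
    (h1 : IsQuasithin G) (h2 : IsOfEvenCharacteristic G) (T : Sylow 2 G) (M : Subgroup G) (hM : ↑T ≤ M)
    (e : M ≃* blockStabilizerS4wr2) : False := by
  let ψ : blockStabilizerS4wr2 →* G := M.subtype.comp e.symm.toMonoidHom
  have ψi : Function.Injective ψ := M.subtype_injective.comp e.symm.injective
  let φ : T0 →* G := ψ.comp (ιT.codRestrict _ ι_mem)
  have φi : Function.Injective φ := fun a b r => ι_inj (congrArg Subtype.val (ψi r))
  let κ : Perm (Fin 4) × Perm (Fin 4) →* G :=
    ψ.comp ((Perm.sumCongrHom _ _).codRestrict _ fun a => sc_mem a.1 a.2)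
  have κi : Function.Injective κ := fun a b r =>
    Perm.sumCongrHom_injective (congrArg Subtype.val (ψi r))
  have p : IsPGroup 2 φ.range := isPGroup_iff_forall.2 (by
    rintro _ ⟨t, rfl⟩
    refine ⟨3, ?_⟩
    rw [← map_pow, ← map_one φ, ← pow8 t, show 2 ^ 3 = 8 from rfl]
    simp only [pow_succ, pow_zero, one_mul, mul_assoc])
  have le : φ.range ≤ M := by rintro _ ⟨t, rfl⟩; exact (e.symm _).2
  have syl : IsSyl 2 φ.range ⊤ := by
    refine (isSyl_top T).of_parabolic hM le_top (isSyl_of_normalizer ?_)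
    have : M ⊓ 𝐍(φ.range) ≤ φ.range := fun m hm => by
      obtain ⟨u, hu⟩ := conj_mem_of_mem_normalizer hm.2 (⟨z, rfl⟩ : φ z ∈ φ.range)
      have k : ∀ t, u * t = t * u := fun t => φi (by
        obtain ⟨t', ht⟩ := conj_mem_of_mem_normalizer' hm.2 (⟨t, rfl⟩ : φ t ∈ φ.range)
        have : φ t = m * φ t' * m⁻¹ := by rw [ht]; group
        rw [map_mul, map_mul, hu, this, ← conj_mul_conj, ← conj_mul_conj, ← map_mul, ← map_mul, z_cent])
      have em : m = ψ (e ⟨m, hm.1⟩) := by simp [ψ]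
      rcases cent_z u (k _) (k _) (k _) with rfl | rfl
      · rw [map_one, eq_comm, mul_inv_eq_one, mul_eq_left, ← map_one φ] at hu
        exact absurd (φi hu) (by decide)
      · rw [eq_comm, conj_eq_iff, em] at hu
        obtain ⟨t, ht⟩ := W_cent (e ⟨m, hm.1⟩).2 (congrArg Subtype.val (ψi (a₁ := _ * ⟨ιT z, ι_mem z⟩)
          (a₂ := ⟨ιT z, ι_mem z⟩ * _) (by rw [map_mul, map_mul]; exact hu)))
        exact ⟨t, em ▸ congrArg ψ (Subtype.ext ht)⟩
    rw [le_antisymm this (le_inf le le_normalizer)]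
    exact isSyl_self p
  have ne : ∀ {H : Subgroup T0} {t}, t ∈ H → t ≠ 1 → H.map φ ≠ ⊥ := fun ht t1 r =>
    t1 (φi ((mem_bot.1 (r ▸ mem_map_of_mem φ ht)).trans (map_one φ).symm))
  have c : Ctx φ (κ.comp (MonoidHom.inl _ _)) (κ.comp (MonoidHom.inr _ _)) := by
    refine ⟨φi, syl, fun K n k => ?_, ?_, fun d => congrArg ψ (Subtype.ext ?_),
      fun d => congrArg ψ (Subtype.ext ?_), fun f g => ?_, fun a b r => congrArg Prod.fst (κi r),
      fun a b r => congrArg Prod.snd (κi r)⟩
    · rcases n.eq_bot_or_eq_top with rfl | rfl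
      · rw [index_bot] at k
        haveI : Fact (Nat.Prime 2) := ⟨Nat.prime_two⟩
        exact hG (isCyclic_of_prime_card k).isMulCommutative
      · rw [index_top] at k; omega
    · have : 𝐍((zpowers z).map φ) = 𝐂₁(φ z) := by
        rw [MonoidHom.map_zpowers]
        refine le_antisymm (fun x hx => ?_) (centralizer_zpowers (φ z) ▸ centralizer_le_normalizer _)
        obtain ⟨u, hu, r⟩ := MonoidHom.map_zpowers φ z ▸ conj_mem_of_mem_normalizer hx (mem_zpowers _)
        have k : ∀ t, u * t = t * u := fun t =>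
          (mem_c1.1 (zpowers_le.2 (mem_c1.2 (z_cent t).symm) hu : u ∈ 𝐂₁(t)))
        rcases cent_z u (k _) (k _) (k _) with rfl | rfl
        · rw [map_one, eq_comm, mul_inv_eq_one, mul_eq_left, ← map_one φ] at r
          exact absurd (φi r) (by decide)
        · exact mem_c1.2 (conj_eq_iff.1 r.symm)
      obtain ⟨S, hS⟩ := syl.exists_sylow_top
      rw [← this]
      refine isCharP_iff.2 (h2 _ ⟨_, p.to_le (map_le_range _ _), ne (mem_zpowers z) (by decide), rfl⟩ ⟨S, ?_⟩)
      rw [hS, this]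
      rintro _ ⟨t, rfl⟩
      exact (Cj.of' (z_cent t)).mem
    · show Perm.sumCongr (pp d) 1 = Perm.sumCongr (pp d) (pp 1) * 1
      rw [map_one, mul_one]
    · show Perm.sumCongr 1 (pp d) = Perm.sumCongr (pp 1) (pp d) * 1
      rw [map_one, mul_one]
    · simp only [MonoidHom.comp_apply, ← map_mul]; simp
  exact c.main (h1 3 Nat.prime_three (by decide) _
    ⟨_, p.to_le (map_le_range _ _), ne (t := z1) rfl (by decide), rfl⟩)

end CF.Q10
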