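import Cfsg.Agent.Q10.Fus
import Cfsg.Agent.S3035
import Cfsg.Agent.Bender.App

/-! The centralizer of the alternating group of degree 4 inside the first factor. -/

set_option autoImplicit false
set_option maxRecDepth 100000

namespace CF.Q10

open Cfsg Subgroup CF.Loc CF.LX Equiv

variable {G : Type*} [Group G] {φ : T0 →* G} {κ1 κ2 : Perm (Fin 4) →* G}

theorem Cj.cond {y : G} {p q : T0} (h : Cj φ y p q) (i : Bool) : Cj φ y (cond i p 1) (cond i q 1) := by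
  cases i
  exacts [Cj.one y, h]

/-- the action of the 3-cycle of the first factor -/
def θ0 (t : T0) : T0 := ⟨θ t.x, t.y, false⟩

theorem g1 : ∀ t : T0, inB t = true → ∃ i j k l : Bool,
    t = cond i a1 1 * cond j z1 1 * cond k z2 1 * cond l v2 1 := by decide +kernel

theorem g2 : ∀ t : T0, inA t = true → ∃ i j k l : Bool,
    t = cond i a1 1 * (cond j z1 1 * cond k z2 1 * cond l a2 1) := by decide +kernel

theorem g3 : ∀ t : T0, inA t = true → t * v1 ≠ v1 * t → ∃ j k l : Bool,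
    t = a1 * (cond j z1 1 * cond k z2 1 * cond l a2 1) ∧
      t * (cond j z1 1 * cond k z2 1 * cond l a2 1) = a1 := by decide +kernel

theorem g4 : ∀ t : T0, inB' t = true → t * θ0 t * θ0 (θ0 t) = 1 →
    ∃ d : D8, d.i = false ∧ t * θ0 ⟨d, 1, false⟩ = ⟨d, 1, false⟩ := by decide +kernel

theorem g5 : ∀ α : T0, inA α = true → (α.x.i && α.y.i) = true → θ0 (α * a1) = α * a1 →
    α = a1 * a2 ∨ α = a1 * (a2 * z2) := by decide +kernel

theorem g6 : ∀ σ : Perm (Fin 4), Perm.sign σ = 1 → σ * σ * (σ * σ) = 1 → σ * σ = 1 := by decide +kernel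

theorem g7 : ∀ σ : Perm (Fin 5), Perm.sign σ = 1 → σ * σ * (σ * σ) = 1 → σ * σ = 1 := by decide +kernel

/-- the identity and the transpositions -/
def F7 : Finset (Perm (Fin 4)) := Finset.univ.filter fun τ => τ * τ = 1 ∧ (τ = 1 ∨ Perm.sign τ = -1)

theorem F7_card : F7.card = 7 := by decide +kernel

theorem F7_conj : ∀ τ : Perm (Fin 4), τ * τ = 1 ∧ (τ = 1 ∨ Perm.sign τ = -1) → τ = 1 ∨
    (∃ σ, σ * pf da * σ⁻¹ = τ) ∧ ∃ σ, σ * pf (da * dz) * σ⁻¹ = τ := by decide +kernel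

theorem card_two_mul {H K : Subgroup G} [Finite G] (h : H ≤ K) {x : G} (h1 : x ∈ K) (h2 : x ∉ H) :
    2 * Nat.card H ≤ Nat.card K := by
  obtain ⟨m, hm⟩ := card_dvd_of_le h
  have := card_lt_card_of_lt (lt_of_le_of_ne h fun e => h2 (e ▸ h1))
  rcases m with _ | _ | m
  · exact absurd hm Nat.card_pos.ne'
  · omega
  · rw [hm]; nlinarith

theorem aux1 {r g a : G} (e3 : r * g = g * r) (e4 : a * r = r * r * a) (r3 : r * r * r = 1) :
    r * (g * a * g⁻¹ * a) = g * a * g⁻¹ * a * r := by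
  have e5 : r * a = a * (r * r) := by
    rw [← mul_assoc, e4, mul_assoc _ a, e4, ← mul_assoc, ← mul_assoc, r3, one_mul]
  have e7 : r * r * g⁻¹ = g⁻¹ * (r * r) :=
    ((show Commute r g from e3).mul_left (show Commute r g from e3)).inv_right
  calc _ = r * g * a * g⁻¹ * a := by group
    _ = g * (r * a) * g⁻¹ * a := by rw [e3, mul_assoc g]
    _ = g * a * (r * r * g⁻¹) * a := by rw [e5]; simp only [mul_assoc]
    _ = g * a * g⁻¹ * (r * r * a) := by rw [e7]; simp only [mul_assoc]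
    _ = _ := by rw [← e4]; simp only [mul_assoc]

theorem aux2 {r g t t1 t2 : G} (e1 : r * g * r⁻¹ = g * t) (c1 : r * t * r⁻¹ = t1)
    (c2 : r * t1 * r⁻¹ = t2) (r3 : r * r * r = 1) : t * t1 * t2 = 1 := by
  have a : r * (r * g * r⁻¹) * r⁻¹ = g * t * t1 := by rw [e1, conj_mul_conj, e1, c1]
  have b : r * (r * (r * g * r⁻¹) * r⁻¹) * r⁻¹ = g * t * t1 * t2 := by
    rw [a, conj_mul_conj, conj_mul_conj, e1, c1, c2]
  have c : r * (r * (r * g * r⁻¹) * r⁻¹) * r⁻¹ = r * r * r * g * (r * r * r)⁻¹ := by group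
  rw [c, r3, one_mul, inv_one, mul_one, mul_assoc, mul_assoc, left_eq_mul, ← mul_assoc] at b
  exact b

namespace Ctx

variable (h : Ctx φ κ1 κ2)
include h

theorem cjθ {t : T0} (h1 : t.e = false) (h2 : t.x.i = false) : Cj φ (κ1 ρ) t (θ0 t) := by
  have a : Cj φ (κ1 ρ) (i1 t.x) (i1 (θ t.x)) := by
    unfold Cj
    rw [← h.k1, ← h.k1, ← map_mul]
    exact (congrArg (κ1 · * _) (ρ_θ t.x h2)).trans (by rw [map_mul, mul_inv_cancel_right]; rfl)
  exact (a.mul (h.r1f ρ t.y)).cast (i12 t h1).symm (i12 (θ0 t) rfl).symm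

variable [Finite G]

theorem naz : ¬ Cn φ a1 z := fun e => by
  obtain ⟨g, a, k⟩ := h.extz e
  obtain ⟨y, hy⟩ := k z1 (by decide)
  obtain ⟨α, hα⟩ := k a2 (by decide)
  obtain ⟨q, hq⟩ := k v2 (by decide)
  have hp := (hα.sq hq).cast (show _ = z2 by decide) rfl
  have pA := (f12 (α * q) _ rfl (h.sq1 hp rfl)).resolve_right fun ⟨t, r⟩ =>
    h.dis h.z12.symm ((hp.cn.trans (Cn.of' r)).trans h.zw.symm)
  generalize α * q * (α * q) = p at hp pA
  have f : Cj φ (κ2 ρ) a1 a1 := h.r2f ρ da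
  obtain ⟨u, hu, qA⟩ := h.nA ((a.symm.comp f).comp a) pA
  obtain rfl : u = q := h.tr hu ((hp.symm.comp h.r2z).comp hq) rfl
  rcases Bool.eq_false_or_eq_true (inA y) with yA | yA
  · have le : cj[g] (B.map φ) ≤ A.map φ := cj_le_iff_forall.2 (by
      rintro _ ⟨t, ht, rfl⟩
      obtain ⟨i, j, k, l, rfl⟩ := g1 t ht
      rw [((((a.cond i).mul (hy.cond j)).mul (hp.cond k)).mul (hq.cond l)).eq]
      refine mem_map_of_mem φ (mul_mem (mul_mem (mul_mem ?_ ?_) ?_) ?_)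
      · cases i <;> rfl
      · cases j; exacts [rfl, yA]
      · cases k; exacts [rfl, pA]
      · cases l; exacts [rfl, qA])
    have eq := cj_eq_iff.1 (eq_of_le_of_card_ge le (by
      rw [card_cj, h.card_map, h.card_map, card_A, card_B]))
    have := h.wc (g := g⁻¹) (eq ▸ map_mono (by decide +kernel :
      ∀ t, inB t = true → inJ t = true)) (eq ▸ mem_map_of_mem φ rfl) (eq ▸ mem_map_of_mem φ rfl)
    rw [cj_eq_self this] at eq
    exact absurd (h.mem_map.1 (eq ▸ mem_map_of_mem φ (rfl : v2 ∈ B) : φ v2 ∈ A.map φ)) (by decide : ¬ inA v2 = true)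
  have cl : ∀ x ∈ [p, u, p * u], Cn φ x z1 ∧ Cn φ (x * z) b := by
    have c1 : Cn φ v2 z1 := h.r2z.cn.symm.trans h.z12.symm
    have c2 : Cn φ (v2 * a1) b := ((h.r2z.mul f).cast (by decide) rfl).cn.symm
    intro x hx
    simp only [List.mem_cons, List.not_mem_nil, or_false] at hx
    rcases hx with rfl | rfl | rfl
    · exact ⟨hp.cn.symm.trans h.z12.symm, ((hp.mul a).cast (by decide) rfl).cn.symm⟩
    · exact ⟨hq.cn.symm.trans c1, (hq.mul a).cn.symm.trans c2⟩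
    · exact ⟨(hp.mul hq).cn.symm.trans ((h.r2v.cast rfl (by decide)).cn.symm.trans c1),
        ((hp.mul hq).mul a).cn.symm.trans (((h.r2v.mul f).cast rfl (by decide)).cn.symm.trans c2)⟩
  have n : ∀ {x x'}, Cj φ g x x' → x ≠ a1 → x' ≠ z := fun e k r => k (h.tr' e a r)
  obtain ⟨⟨x, hx, r⟩, x', hx', r'⟩ := f13 p pA (h.ne1 hp (by decide)) (n hp (by decide)) u qA
    (h.ne1 hq (by decide)) (n hq (by decide)) (h.ne1 (hp.mul hq) (by decide))
    (n (hp.mul hq) (by decide)) y yA (h.comm hy hp (by decide)) (h.comm hy hq (by decide))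
  have b1 : Cn φ b z1 := by
    have := (cl x hx).2.symm
    rcases r with rfl | rfl
    · exact this.trans h.z12.symm
    · exact this
  have ac : ∀ x ∈ [a1, a1 * z1, a2, a2 * z2], Cn φ x z := fun x hx =>
    ((by decide +kernel : ∀ x ∈ [a1, a1 * z1, a2, a2 * z2], ∃ t, t * x = a1 * t) x hx).elim
      fun _ r => (Cn.of' r).trans e
  exact r'.elim (fun r => h.dis (cl x' hx').1 (ac _ r)) fun r => h.dis ((cl x' hx').2.trans b1) (ac _ r)

theorem az1 : Cn φ a1 z1 :=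
  ((h.thompson (x := a1) rfl (by decide)).resolve_left h.naz).elim id (·.trans h.z1c)

theorem mapA {g : G} (hg : g ∈ 𝐍(A.map φ)) {p q : T0} (e : Cj φ g p q) (hp : inA p = true) :
    inA q = true :=
  h.mem_map.1 (e.eq ▸ conj_mem_of_mem_normalizer hg (mem_map_of_mem φ hp) : φ q ∈ A.map φ)

theorem exg0 : Cn φ b z ∧ ∃ g ∈ 𝐍(A.map φ), Cj φ g v1 v1 ∧ Cj φ g z1 z1 ∧ Cj φ g a2 z2 := by
  obtain ⟨g, a, k⟩ := h.ext1 (x := a2) (Or.inr rfl)
    (((Cn.of' (t := s) (by decide)).trans h.az1).trans h.z12)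
  obtain ⟨α, p1, p2⟩ := k a1 (by decide)
  obtain ⟨β, q1, q2⟩ := k v1 (by decide)
  have ζ := (p1.sq q1).cast (show _ = z1 by decide) rfl
  have r : α * β * (α * β) = z1 := by
    rcases f2 α p2 (h.sq1 p1 rfl) β q2 (h.sq1 q1 rfl) with r | r | r | ⟨r, -⟩
    · exact absurd r (h.ne1 ζ (by decide))
    · exact r
    · exact absurd (h.tr' ζ a r) (by decide)
    · exact (h.nz1 (r ▸ ζ.cn)).elim
  have hz := ζ.cast rfl r
  have c0 : Cn φ (z1 * a2) z := ((hz.mul a).cast rfl (by decide)).cn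
  have hg : g ∈ 𝐍(A.map φ) := h.wc (cj_le_iff_forall.2 (by
      rintro _ ⟨t, ht, rfl⟩
      obtain ⟨t', r1, r2⟩ := k t (A_comm t ht a2 rfl)
      exact ⟨t', r2, r1.eq.symm⟩)) (hz.eq ▸ conj_mem_cj g (mem_map_of_mem φ rfl))
    (a.eq ▸ conj_mem_cj g (mem_map_of_mem φ rfl))
  refine ⟨(Cn.of' (t := s) (by decide)).trans c0, ?_⟩
  have β1 : Cn φ β z1 := q1.cn.symm.trans h.z1v.symm
  rcases f14 α (h.mapA hg p1 rfl) β q2 (h.sq1 q1 rfl) r with r | r | ⟨t, r | r | r⟩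
  · exact ⟨g, hg, r ▸ q1, hz, a⟩
  · exact ⟨φ a1 * g, mul_mem (h.C_le (Cj.of' (z_cent a1)).mem) hg,
      (q1.cast rfl r).comp (Cj.of' (by decide)), hz.comp (Cj.of' (by decide)), a.comp (Cj.of' (by decide))⟩
  · exact (h.dis β1 ((Cn.of' r).trans h.zvz.symm)).elim
  · exact (h.dis β1 ((Cn.of' r).trans h.zw.symm)).elim
  · exact (h.dis β1 ((Cn.of' r).trans ((h.r1z.mul (h.r1f ρ da)).cn.symm.trans c0))).elim

theorem imA {g : G} (hg : g ∈ 𝐍(A.map φ)) {p : T0} (hp : inA p = true) :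
    ∃ q, Cj φ g p q ∧ inA q = true :=
  (conj_mem_of_mem_normalizer hg (mem_map_of_mem φ hp)).imp fun _ r => ⟨r.2.symm, r.1⟩

theorem cent {x : G} (h1 : Cj φ x v1 v1) (h2 : Cj φ x z1 z1) (h3 : Cj φ x z2 z2) : x ∈ φ.range := by
  let P : Subgroup G := 𝐂₁(φ v1) ⊓ 𝐂₁(φ z1) ⊓ 𝐂₁(φ z2)
  have p : IsPGroup 2 P := isPGroup_iff_forall.2 fun x hx => by
    have h1 := Cj.of_mem hx.1.1
    have h2 := Cj.of_mem hx.1.2
    have h3 := Cj.of_mem hx.2
    have h4 : Cj φ x z z := h2.mul h3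
    obtain ⟨y, hy, yA⟩ := h.nA h4 (a := a2) rfl
    have h5 : Cj φ x (y * a2) (y * a2) := by
      rcases f18 y yA (h.comm hy h1 (by decide)) (h.ne1 hy (by decide))
        (fun r => absurd (h.tr' hy h2 r) (by decide)) (fun r => absurd (h.tr' hy h3 r) (by decide))
        (fun r => absurd (h.tr' hy h4 r) (by decide)) with r | r | r | r <;> rw [r]
      exacts [Cj.one x, h2, h3, h4]
    have h6 : Cj φ (x * x) a2 a2 := hy.comp ((h5.mul hy).cast (by rw [mul_assoc]; exact mul_one y)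
      ((by decide +kernel : ∀ y, inA y = true → y * a2 * y = a2) y yA))
    have w : ∀ j k l : Bool, Cj φ (x * x) _ _ := fun j k l =>
      (((h2.comp h2).cond j).mul ((h3.comp h3).cond k)).mul (h6.cond l)
    obtain ⟨α, hα, αA⟩ := h.nA (h4.comp h4) (a := a1) rfl
    obtain ⟨j, k, l, r1, r2⟩ := g3 α αA fun r =>
      absurd (h.tr' (hα.mul (h1.comp h1)) ((h1.comp h1).mul hα) r) (by decide)
    have h7 : Cj φ (x * x * (x * x)) a1 a1 := hα.comp ((hα.mul (w j k l)).cast r1.symm r2)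
    obtain ⟨t, ht⟩ := h.cA (k := x * x * (x * x)) (mem_centralizer_of_conj_eq (by
      rintro _ ⟨t, ht, rfl⟩
      obtain ⟨i, j, k, l, rfl⟩ := g2 t ht
      exact ((h7.cond i).mul ((w j k l).comp (w j k l))).eq))
    refine ⟨5, ?_⟩
    have := congrArg φ (pow8 t)
    simp only [map_mul, map_one, ht] at this
    rw [← this, show 2 ^ 5 = 32 from rfl]
    simp only [pow_succ, pow_zero, one_mul, mul_assoc]
  refine map_le_range φ J (h.sylJ.le_of_le_normalizer p (inf_le_left.trans inf_le_right) ?_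
    (show x ∈ P from ⟨⟨h1.mem, h2.mem⟩, h3.mem⟩))
  rintro _ ⟨t, ht, rfl⟩
  refine mem_normalizer_of_conj_mem fun x hx => ?_
  have m : ∀ {p q}, t * p = q * t → Cj φ x p p → φ t * x * (φ t)⁻¹ ∈ 𝐂₁(φ q) := fun e k =>
    mul_assoc (φ t) x _ ▸ (((Cj.of' e).symm.comp k).comp (Cj.of' e)).mem
  obtain ⟨r1, r2, r3⟩ := (by decide +kernel : ∀ t : T0, inJ t = true → t * z1 = z1 * t ∧ t * z2 = z2 * t ∧
    (t * v1 = v1 * t ∨ t * (v1 * z1) = v1 * t)) t ht
  exact ⟨⟨r3.elim (m · (Cj.of_mem hx.1.1)) (m · ((Cj.of_mem hx.1.1).mul (Cj.of_mem hx.1.2))),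
    m r1 (Cj.of_mem hx.1.2)⟩, m r2 (Cj.of_mem hx.2)⟩

theorem r3 : κ1 ρ * κ1 ρ * κ1 ρ = 1 := by rw [← map_mul, ← map_mul, ρ_3, map_one]

theorem exg : ∃ g, Cj φ g v1 v1 ∧ Cj φ g z1 z1 ∧ κ1 ρ * g = g * κ1 ρ ∧ Cj φ g a2 z2 ∧
    (Cj φ g a1 (a1 * a2) ∨ Cj φ g a1 (a1 * (a2 * z2))) := by
  obtain ⟨bz, g, hg, h1, h2, h3⟩ := h.exg0
  obtain ⟨y, hy, yA⟩ := h.imA hg (p := z2) rfl
  have ry : Cj φ (κ1 ρ) y y := by
    rcases f15 y yA (h.comm hy h1 (by decide)) with r | r | r | r | r | r | ⟨t, r⟩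
    · exact absurd r (h.ne1 hy (by decide))
    · exact absurd (h.tr' hy h2 r) (by decide)
    · exact absurd (h.tr' hy h3 r) (by decide)
    · exact (h.dis h.z12.symm (r ▸ hy.cn)).elim
    · exact r ▸ h.r1f ρ da
    · exact r ▸ h.r1f ρ (da * dz)
    · exact (h.dis h.z12.symm ((hy.cn.trans (Cn.of' r)).trans bz)).elim
  have rv : Cj φ (κ1 ρ) (v1 * z1) z1 := (h.r1v.mul h.r1z).cast rfl (by decide)
  have rz : Cj φ (κ1 ρ) z2 z2 := h.r1f ρ dz
  have ra : Cj φ (κ1 ρ) a2 a2 := h.r1f ρ da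
  have w1 := ((h.r1z.symm.comp h2).comp h.r1z).comp h1.symm
  have w2 := ((rv.symm.comp (h1.mul h2)).comp rv).comp h2.symm
  have w4 := ((ra.symm.comp h3).comp rz).comp h3.symm
  obtain ⟨t, ht⟩ := h.cent w1 w2 (((rz.symm.comp hy).comp ry).comp hy.symm)
  rw [← ht] at w1 w2 w4
  have tr : ∀ {p}, Cj φ (φ t) p p → t * p = p * t := fun e => h.inj (by
    rw [map_mul, map_mul]; exact mem_c1.1 e.mem)
  have tB := f17 t (tr w1) (tr w2) (tr w4)
  have e1 : κ1 ρ * g * (κ1 ρ)⁻¹ = g * φ t := by rw [ht]; group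
  obtain ⟨t1, t2⟩ := f20 t (tr w1) (tr w2)
  have c1 := h.cjθ t1 t2
  have c2 := h.cjθ (t := θ0 t) rfl rfl
  obtain ⟨d, d1, d2⟩ := g4 t tB (h.inj (by
    rw [map_mul, map_mul, map_one]; exact aux2 e1 c1.eq c2.eq h.r3))
  have c3 := h.cjθ (t := ⟨d, 1, false⟩) rfl d1
  obtain ⟨u1, u2, u3, u4⟩ := (by decide +kernel : ∀ d : D8, d.i = false → ∀ u : T0, u = ⟨d, 1, false⟩ →
    u * v1 = v1 * u ∧ u * z1 = z1 * u ∧ u * a2 = a2 * u ∧ (u * a1 = a1 * u ∨ u * a1 = a1 * z1 * u))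
    d d1 _ rfl
  generalize (⟨d, 1, false⟩ : T0) = u at *
  have e3 : κ1 ρ * (g * φ u) = g * φ u * κ1 ρ := conj_eq_iff.1 (by
    rw [conj_mul_conj, e1, c3.eq, mul_assoc, ← map_mul, d2])
  have k1 := (Cj.of' u1).comp h1
  have k3 := (Cj.of' u3).comp h3
  refine ⟨g * φ u, k1, (Cj.of' u2).comp h2, e3, k3, ?_⟩
  obtain ⟨α, hα, αA⟩ := h.imA (mul_mem hg (h.C_le (Cj.of' (z_cent u)).mem)) (p := a1) rfl
  generalize g * φ u = g at *
  rcases f16 α αA (fun r => absurd (h.tr' (hα.mul k1) (k1.mul hα) r) (by decide)) with r | ⟨t, r⟩ | ⟨t, r⟩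
  · have e4 : φ a1 * κ1 ρ = κ1 ρ * κ1 ρ * φ a1 := by
      show φ (i1 da) * _ = _ * φ (i1 da)
      rw [← h.k1, ← map_mul, ρ_a, map_mul, map_mul]
    have e6 : Cj φ (κ1 ρ) (α * a1) (α * a1) := conj_eq_iff.2 (by
      rw [map_mul, ← hα.eq]; exact aux1 e3 e4 h.r3)
    obtain ⟨s1, s2⟩ := (by decide +kernel : ∀ α : T0, inA α = true → (α.x.i && α.y.i) = true →
      (α * a1).e = false ∧ (α * a1).x.i = false) α αA r
    exact (g5 α αA r (h.tr (h.cjθ s1 s2) e6 rfl)).imp (hα.cast rfl) (hα.cast rfl)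
  · exact (h.dis h.az1 ((hα.cn.trans (Cn.of' r)).trans bz)).elim
  · exact (h.dis h.z1c (((hα.mul k3).cn.trans (Cn.of' r)).trans bz)).elim

end Ctx

end CF.Q10
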