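import Cfsg.Agent.Q10.Fin
import Cfsg.Agent.Classical.Linear

/-! The final contradiction. -/

set_option autoImplicit false
set_option maxRecDepth 100000

namespace CF.Q10

open Cfsg Subgroup CF.Loc CF.LX Equiv

variable {G : Type*} [Group G] {φ : T0 →* G} {κ1 κ2 : Perm (Fin 4) →* G}

theorem card_le_index [Finite G] (L : Subgroup G) (a : G) (S : Finset G)
    (h : ∀ y ∈ S, ∃ x : L, x.1 * a * x.1⁻¹ = y) : S.card ≤ ((𝐂₁(a)).subgroupOf L).index := by
  choose f hf using h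
  rw [← Nat.card_eq_finsetCard, index_eq_card]
  refine Nat.card_le_card_of_injective (fun y : S => (f y.1 y.2 : L ⧸ (𝐂₁(a)).subgroupOf L))
    fun y y' e => Subtype.ext ?_
  have := mem_c1.1 (mem_subgroupOf.1 (QuotientGroup.eq.1 e))
  rw [← hf y.1 y.2, ← hf y'.1 y'.2]
  rw [coe_mul, coe_inv] at this
  calc _ = (f y.1 y.2).1 * (a * ((f y.1 y.2).1⁻¹ * (f y'.1 y'.2).1)) * (f y'.1 y'.2).1⁻¹ := by group
    _ = _ := by rw [← this]; group

theorem l1 : ∀ t : T0, t.e = false → t.x.i = false → θ0 t = t → t = ⟨1, t.y, false⟩ := by decide +kernel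

theorem l2 : ∀ d : D8, ∀ τ, τ = (pf d)⁻¹ * ρ * (pf dz * ((pf d)⁻¹ * ρ)⁻¹ * (pf dz)⁻¹) →
    τ * τ = 1 ∧ τ ≠ 1 := by decide +kernel

/-- two commuting 3-cycles -/
def x6 : alternatingGroup (Fin 6) := ⟨swap 0 1 * swap 0 2, Perm.mem_alternatingGroup.2 (by decide +kernel)⟩
/-- two commuting 3-cycles -/
def y6 : alternatingGroup (Fin 6) := ⟨swap 3 4 * swap 3 5, Perm.mem_alternatingGroup.2 (by decide +kernel)⟩

theorem x6_3 : x6 ^ 3 = 1 := Subtype.ext (by decide +kernel)
theorem y6_3 : y6 ^ 3 = 1 := Subtype.ext (by decide +kernel)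
theorem x6_1 : x6 ≠ 1 := fun e => absurd (congrArg Subtype.val e) (by decide +kernel)
theorem xy6 : x6 * y6 = y6 * x6 := Subtype.ext (by decide +kernel)
theorem y6_not : y6 ∉ zpowers x6 := fun h => by
  have : ∀ u ∈ zpowers x6, u.1 3 = 3 := fun u hu => by
    have k : x6 ∈ (MulAction.stabilizer (Perm (Fin 6)) (3 : Fin 6)).subgroupOf _ :=
      (by decide +kernel : x6.1 3 = 3)
    exact zpowers_le.2 k hu
  exact absurd (this _ h) (by decide +kernel)

theorem Ctx.main [Finite G] (h : Ctx φ κ1 κ2) (hr : PRankLE 3 2 ↥𝐍(V.map φ)) : False := by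
  obtain ⟨g, h1, h2, h3, h4, h5⟩ := h.exg
  let L : Subgroup G := 𝐂₁(φ v1) ⊓ 𝐂₁(φ z1) ⊓ 𝐂₁(κ1 ρ)
  have hκ : ∀ f, κ2 f ∈ L := fun f => ⟨⟨(h.r2f f dv).mem, (h.r2f f dz).mem⟩, mem_c1.2 (h.kc ρ f).symm⟩
  let κ : Perm (Fin 4) →* L := κ2.codRestrict L hκ
  have gL : g ∈ L := ⟨⟨h1.mem, h2.mem⟩, mem_c1.2 h3.symm⟩
  have inj : Function.Injective κ := fun a b e => h.inj2 (congrArg Subtype.val e)
  have hC : 𝐂₁(κ (pp dz)) = (κ.comp pp).range := by
    refine le_antisymm (fun x hx => ?_) ?_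
    · have e : x.1 * κ2 (pp dz) = κ2 (pp dz) * x.1 := congrArg Subtype.val (mem_c1.1 hx)
      rw [h.k2] at e
      obtain ⟨t, ht⟩ := h.cent (Cj.of_mem x.2.1.1) (Cj.of_mem x.2.1.2) (conj_eq_iff.2 e)
      obtain ⟨t1, t2⟩ := f20 t (h.inj (by rw [map_mul, map_mul, ht]; exact mem_c1.1 x.2.1.1))
        (h.inj (by rw [map_mul, map_mul, ht]; exact mem_c1.1 x.2.1.2))
      have := l1 t t1 t2 (h.tr (h.cjθ t1 t2) (conj_eq_iff.2 (ht ▸ (mem_c1.1 x.2.2).symm)) rfl)
      exact ⟨t.y, Subtype.ext ((h.k2 _).trans ((congrArg φ this).symm.trans ht))⟩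
    · rintro _ ⟨d, rfl⟩
      refine mem_c1.2 ?_
      rw [MonoidHom.comp_apply, ← map_mul, ← map_mul, ← map_mul, ← map_mul,
        (by decide : ∀ d : D8, d * dz = dz * d) d]
  have o2 : ∀ τ : Perm (Fin 4), τ * τ = 1 → τ ≠ 1 → orderOf (κ τ) = 2 := fun τ a b =>
    orderOf_eq_prime (by rw [pow_two, ← map_mul, a, map_one]) fun e => b (inj (e.trans (map_one κ).symm))
  have sg : ∀ χ : L →* ℤˣ, χ (κ (pp (da * dv))) = 1 := fun χ => by
    have e1 : χ (κ (pp dz)) = 1 := by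
      rw [show dz = da * dv * (da * dv) by decide, map_mul pp, map_mul κ, map_mul χ, Int.units_mul_self]
    have e2 : (⟨g, gL⟩ : L) * κ (pp da) = κ (pp dz) * ⟨g, gL⟩ := Subtype.ext (by
      show g * κ2 (pp da) = κ2 (pp dz) * g
      rw [h.k2, h.k2]; exact mul_inv_eq_iff_eq_mul.1 h4.eq)
    have e3 := congrArg χ e2
    have e4 := congrArg (χ.comp κ) ρ_z
    simp only [map_mul, MonoidHom.comp_apply, e1, mul_one, one_mul, mul_eq_left, right_eq_mul] at e3 e4
    rw [map_mul, map_mul, map_mul, e3, e4, one_mul]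
  have ns : ∀ {n : ℕ} (e : L ≃* Perm (Fin n)),
      ¬ ∀ σ : Perm (Fin n), Perm.sign σ = 1 → σ * σ * (σ * σ) = 1 → σ * σ = 1 := fun e k => by
    have := k (e (κ (pp (da * dv)))) (by simpa using sg (Perm.sign.comp e.toMonoidHom)) (by
      simp only [← map_mul]
      rw [show da * dv * (da * dv) * (da * dv * (da * dv)) = 1 by decide, map_one, map_one, map_one])
    simp only [← map_mul] at this
    exact absurd (pp_inj (inj (e.injective (this.trans (by simp : 1 = e (κ (pp 1))))))) (by decide)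
  rcases Cfsg.Agent.S3035.result (κ (pp dz)) (o2 _ (by decide +kernel : pf dz * pf dz = 1)
    (by decide +kernel : pf dz ≠ 1)) ⟨(MulEquiv.subgroupCongr hC).trans
      ((MonoidHom.ofInjective (f := κ.comp pp) (inj.comp pp_inj)).symm.trans eDih)⟩ with r | ⟨⟨e⟩⟩ | ⟨⟨e⟩⟩ | ⟨⟨e⟩⟩ | ⟨⟨e⟩⟩
  · obtain ⟨y, hy, o, ho, e⟩ := (mem_sup_of_le_normalizer' le_normalizer_of_normal).1 (r.ge (mem_top (κ ρ)))
    rw [hC] at hy
    obtain ⟨d, rfl⟩ := hy
    have e' : o = κ ((pf d)⁻¹ * ρ) := by rw [map_mul, map_inv, ← e]; exact (inv_mul_cancel_left _ _).symm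
    obtain ⟨a, b⟩ := l2 d _ rfl
    have m := mul_mem ho ((inferInstance : (oddCore L).Normal).conj_mem _ (inv_mem ho) (κ (pf dz)))
    rw [e', ← map_inv, ← map_inv, ← map_mul, ← map_mul, ← map_mul] at m
    have := Subgroup.orderOf_dvd_natCard _ m
    rw [o2 _ a b] at this
    exact (Nat.not_even_iff_odd.2 CF.Bender.oddCore_odd) (even_iff_two_dvd.2 this)
  · exact ns e g6
  · exact ns e g7
  · have c1 : Nat.card L = 168 := by
      have := CF.Classical.card_SL_fin (F := ZMod 2) 3 (by decide)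
      rw [ZMod.card, Fin.prod_univ_three] at this
      exact (Nat.card_congr e.toEquiv).trans ((one_mul _).symm.trans (this.trans (by decide)))
    have ka : ∀ f, κ2 f * φ a1 = φ a1 * κ2 f := fun f => mem_c1.1 (h.r2f f da).mem
    have c2 : 24 ≤ Nat.card ((𝐂₁(φ a1)).subgroupOf L) := by
      have : Nat.card κ.range = 24 := by
        rw [← Nat.card_congr (MonoidHom.ofInjective inj).toEquiv, Nat.card_perm, Nat.card_fin]; rfl
      rw [← this]
      refine card_le_of_le ?_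
      rintro _ ⟨f, rfl⟩
      exact mem_c1.2 (ka f)
    have c3 := ((𝐂₁(φ a1)).subgroupOf L).index_mul_card
    have orb : ∀ τ ∈ F7, ∃ x : L, x.1 * φ a1 * x.1⁻¹ = φ a1 * κ2 τ := fun τ hτ => by
      have m : ∀ σ d, Cj φ g a1 (a1 * i2 d) → ∃ x : L, x.1 * φ a1 * x.1⁻¹ = φ a1 * κ2 (σ * pf d * σ⁻¹) :=
        fun σ d e => ⟨κ σ * ⟨g, gL⟩, by
          show κ2 σ * g * φ a1 * (κ2 σ * g)⁻¹ = φ a1 * κ2 (σ * pp d * σ⁻¹)
          rw [map_mul, map_mul, map_inv, h.k2, ← mul_assoc, ← mul_assoc, ← ka, mul_assoc (κ2 σ) (φ a1),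
            ← map_mul, ← e.eq]
          group⟩
      rcases F7_conj τ (Finset.mem_filter.1 hτ).2 with rfl | ⟨⟨σ, e1⟩, σ', e2⟩
      · exact ⟨1, by simp⟩
      · exact h5.elim (fun k => e1 ▸ m σ da k) fun k => e2 ▸ m σ' (da * dz) k
    obtain ⟨x1, e1⟩ := orb (swap 0 1) (by decide +kernel)
    obtain ⟨x2, e2⟩ := orb (swap 0 2) (by decide +kernel)
    classical
    have := card_le_index L (φ a1) (insert (x1.1⁻¹ * (φ a1 * κ2 (swap 0 2)) * x1.1)
      (F7.image fun τ => φ a1 * κ2 τ)) fun y hy => by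
        rcases Finset.mem_insert.1 hy with rfl | hy
        · exact ⟨x1⁻¹ * x2, by rw [← e2, coe_mul, coe_inv]; group⟩
        · obtain ⟨τ, hτ, rfl⟩ := Finset.mem_image.1 hy
          exact orb τ hτ
    rw [Finset.card_insert_of_notMem, Finset.card_image_of_injective _
      fun a b e => h.inj2 (mul_left_cancel e), F7_card] at this
    · rw [c1] at c3; nlinarith
    intro hy
    obtain ⟨τ, -, e3⟩ := Finset.mem_image.1 hy
    have e4 : φ a1 * κ2 (swap 0 1) * (φ a1 * κ2 (swap 0 2)) =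
        φ a1 * κ2 (swap 0 2) * (φ a1 * κ2 (swap 0 1)) := by
      have e5 : φ a1 * κ2 (swap 0 2) = x1.1 * (φ a1 * κ2 τ) * x1.1⁻¹ := by rw [e3]; group
      rw [e5, ← e1, ← conj_mul_conj, ← conj_mul_conj, mul_assoc (φ a1) (κ2 τ), ka]
    rw [mul_assoc, mul_assoc, mul_right_inj, ← mul_assoc, ← mul_assoc, ka, ka, mul_assoc, mul_assoc,
      mul_right_inj, ← map_mul, ← map_mul] at e4
    exact absurd (h.inj2 e4) (by decide +kernel)
  · let f : alternatingGroup (Fin 6) →* G := L.subtype.comp e.symm.toMonoidHom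
    have fi : Function.Injective f := L.subtype_injective.comp e.symm.injective
    have fL : ∀ u, f u ∈ L := fun u => (e.symm u).2
    let K : Subgroup G := closure {f x6, f y6, κ1 ρ}
    have cm : IsMulCommutative K := isMulCommutative_closure (by
      have a1 : f x6 * f y6 = f y6 * f x6 := by rw [← map_mul, xy6, map_mul]
      have a2 := mem_c1.1 (fL x6).2
      have a3 := mem_c1.1 (fL y6).2
      simp only [Set.mem_insert_iff, Set.mem_singleton_iff, forall_eq_or_imp, forall_eq]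
      exact ⟨⟨trivial, a1, a2⟩, ⟨a1.symm, trivial, a3⟩, a2.symm, a3.symm, trivial⟩)
    have p3 : ∀ u ∈ K, u ^ 3 = 1 := fun u hu => by
      induction hu using closure_induction with
      | mem x hx =>
        rcases hx with rfl | rfl | rfl
        · rw [← map_pow, x6_3, map_one]
        · rw [← map_pow, y6_3, map_one]
        · rw [← h.r3]; simp [pow_succ]
      | one => exact one_pow _
      | mul x y hx hy a b => rw [(show Commute x y from setLike_mul_comm hx hy).mul_pow, a, b, one_mul]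
      | inv x _ a => rw [inv_pow, a, inv_one]
    have LN : L ≤ 𝐍(V.map φ) := fun x hx => centralizer_le_normalizer _ (mem_centralizer_of_conj_eq (by
      rintro _ ⟨t, ht, rfl⟩
      obtain ⟨i, j, rfl⟩ := (by decide +kernel : ∀ t : T0, (!t.e && !t.x.i && t.y == 1) = true →
        ∃ i j : Bool, t = cond i v1 1 * cond j z1 1) t ht
      exact (((Cj.of_mem hx.1.1).cond i).mul ((Cj.of_mem hx.1.2).cond j)).eq))
    have KN : K ≤ 𝐍(V.map φ) := (closure_le _).2 (by
      rintro _ (rfl | rfl | rfl)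
      · exact LN (fL _)
      · exact LN (fL _)
      refine mem_normalizer_of_conj_mem ?_
      rintro _ ⟨t, ht, rfl⟩
      obtain ⟨t1, t2, t3⟩ := (by decide +kernel : ∀ t : T0, (!t.e && !t.x.i && t.y == 1) = true →
        t.e = false ∧ t.x.i = false ∧ (!(θ0 t).e && !(θ0 t).x.i && (θ0 t).y == 1) = true) t ht
      exact ⟨θ0 t, t3, (h.cjθ t1 t2).eq.symm⟩)
    have c1 := hr (K.subgroupOf _) ⟨⟨fun a b => Subtype.ext (Subtype.ext (setLike_mul_comm (s := K) a.2 b.2))⟩⟩
      fun a ha => Subtype.ext (p3 _ ha)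
    rw [Nat.card_congr (subgroupOfEquivOfLe KN).toEquiv] at c1
    have c2 : Nat.card (zpowers (f x6)) = 3 := by
      rw [Nat.card_zpowers, orderOf_injective f fi]
      exact orderOf_eq_prime x6_3 x6_1
    have c3 := card_two_mul (le_sup_left : zpowers (f x6) ≤ zpowers (f x6) ⊔ zpowers (f y6))
      (le_sup_right (a := zpowers (f x6)) (mem_zpowers _))
      (by rw [← MonoidHom.map_zpowers, mem_map_iff_mem fi]; exact y6_not)
    have c4 := card_two_mul (K := K) (x := κ1 ρ) (sup_le (zpowers_le.2 (subset_closure (by simp)))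
      (zpowers_le.2 (subset_closure (by simp))) : zpowers (f x6) ⊔ zpowers (f y6) ≤ K)
      (subset_closure (by simp)) fun k => absurd (h.tr h.r1z (Cj.of_mem
        ((sup_le (zpowers_le.2 (fL _)) (zpowers_le.2 (fL _)) : _ ≤ L) k).1.2) rfl) (by decide)
    omega

end CF.Q10
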